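import Cfsg.Agent.HNOrder54.NormalProp
import Cfsg.Agent.HNOrder51.CoverOK
import Cfsg.Agent.HNOrder51.Inj
import Cfsg.Agent.HN133.TenBound

/-!
The index of `⟨x, y, z⟩`, and the simplicity and order of the presented Harada–Norton group.
-/

set_option autoImplicit false

namespace CfsgLib.HNOrder54

open CfsgLib.HN51

theorem bound10 : Bound10 := fun P _ x y z h hgen => CfsgLib.HN133.tenBound P x y z h hgen

theorem hnFaith : Faith := faith bound10

theorem hnCFix : CFix := cfix bound10

theorem hnCovered : Covered := fun g => cover hnFaith hnCFix g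

theorem index_Nsub : Nsub.index = 1539000 := index_eq hnFaith hnCFix hnCovered

theorem card_Nsub : Nat.card ↥Nsub = 177408000 := by
  have e : CfsgLib.HN133.toHN.range = Nsub := by
    rw [CfsgLib.HN133.toHN_range, Nsub_eq]; rfl
  rw [← e, ← Nat.card_congr CfsgLib.HN133.equivRange.toEquiv, CfsgLib.HN133.card_P0]

theorem isHN_presented : Cfsg.IsHN Cfsg.Spor.HN :=
  isHN hnFaith hnCFix hnCovered (normalProp CfsgLib.HN133.tenBound) card_Nsub

end CfsgLib.HNOrder54
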